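import Cfsg.Statements.S5521
import Cfsg.Agent.M24.Six

set_option autoImplicit false
open Cfsg

namespace Cfsg.Agent.S5521

open Cfsg.Agent.M24 Finset MulAction
open scoped symmDiff Pointwise


/-- The Mathieu group M₂₄ in its natural action on the 24 coordinate positions of the binary Golay code has minimal base size exactly 7: every set of at most 6 positions is fixed pointwise by some non-identity element of M₂₄, while some set of 7 positions is fixed pointwise only by the identity. -/
theorem result :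
    (∀ B : Finset Cfsg.GolayPt, B.card ≤ 6 → ∃ g ∈ Cfsg.M24, g ≠ 1 ∧ ∀ b ∈ B, g b = b) ∧
    (∃ B : Finset Cfsg.GolayPt, B.card = 7 ∧ ∀ g ∈ Cfsg.M24, (∀ b ∈ B, g b = b) → g = 1) := by
  refine ⟨fun B hB => ?_, ⟨unmask 8388671, by decide +kernel, fun g hg h => fix7 hg h⟩⟩
  obtain ⟨F, hBF, -, hF⟩ := exists_subsuperset_card_eq (subset_univ B) hB
    (by rw [card_univ, card_golayPt]; norm_num)
  have h1 : 1 < Nat.card (pstab F) := by
    by_cases h : ∃ o ∈ Cfsg.octads, F ⊆ o
    · obtain ⟨o, ho, h⟩ := h
      rw [card_pstab_six_in hF ho h]; norm_num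
    · rw [card_pstab_six_out hF h]; norm_num
  have : Nontrivial (pstab F) := Finite.one_lt_card_iff_nontrivial.1 h1
  obtain ⟨g, hg⟩ := exists_ne (1 : pstab F)
  exact ⟨g.1.1, g.1.2, fun e => hg (Subtype.ext (Subtype.ext e)), fun b hb => g.2 b (hBF hb)⟩

end Cfsg.Agent.S5521
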