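import Cfsg.Statements.S5529
import Cfsg.Agent.M24.LinAct

set_option autoImplicit false
open Cfsg

namespace Cfsg.Agent.S5529

open Cfsg.Agent.M24 Finset MulAction
open scoped symmDiff Pointwise

open Module

theorem scott {F V : Type*} [Field F] [AddCommGroup V] [Module F V] [FiniteDimensional F V]
    (X Y Z : End F V) (h : X * Y * Z = 1) :
    finrank F V + finrank F ↥(LinearMap.range (1 - X) ⊔ LinearMap.range (1 - Y)) ≤
      finrank F ↥(LinearMap.range (1 - X)) + finrank F ↥(LinearMap.range (1 - Y)) +
        finrank F ↥(LinearMap.range (1 - Z)) +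
        finrank F ↥(LinearMap.ker (1 - X) ⊓ LinearMap.ker (1 - Y)) := by
  let α : V →ₗ[F] (LinearMap.range (1 - X) × LinearMap.range (1 - Y)) × LinearMap.range (1 - Z) :=
    (((1 - X).rangeRestrict ∘ₗ (Y * Z)).prod ((1 - Y).rangeRestrict ∘ₗ Z)).prod (1 - Z).rangeRestrict
  let β : ((LinearMap.range (1 - X) × LinearMap.range (1 - Y)) × LinearMap.range (1 - Z)) →ₗ[F] V :=
    ((Submodule.subtype _).coprod (Submodule.subtype _)).coprod (Submodule.subtype _)
  have h1 : LinearMap.range α ≤ LinearMap.ker β := by
    rintro _ ⟨v, rfl⟩
    have := congrArg (fun T : End F V => T v) h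
    simp only [End.mul_apply, End.one_apply] at this
    simp [α, β, this]
  have h2 : LinearMap.ker α ≤ LinearMap.ker (1 - X) ⊓ LinearMap.ker (1 - Y) := by
    intro v hv
    have a : Y (Z v) = X (Y (Z v)) := sub_eq_zero.1 (congrArg (fun t => (t.1.1 : V)) hv)
    have b : Z v = Y (Z v) := sub_eq_zero.1 (congrArg (fun t => (t.1.2 : V)) hv)
    have c : v = Z v := sub_eq_zero.1 (congrArg (fun t => (t.2 : V)) hv)
    rw [← c] at a b
    rw [← b] at a
    simp only [Submodule.mem_inf, LinearMap.mem_ker, LinearMap.sub_apply, End.one_apply, sub_eq_zero]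
    exact ⟨a, b⟩
  have h3 : LinearMap.range (1 - X) ⊔ LinearMap.range (1 - Y) ≤ LinearMap.range β :=
    sup_le (fun v hv => ⟨((⟨v, hv⟩, 0), 0), by simp [β]⟩) fun v hv => ⟨((0, ⟨v, hv⟩), 0), by simp [β]⟩
  have e1 := LinearMap.finrank_range_add_finrank_ker α
  have e2 := LinearMap.finrank_range_add_finrank_ker β
  rw [finrank_prod, finrank_prod] at e2
  have := Submodule.finrank_mono h1
  have := Submodule.finrank_mono h2
  have := Submodule.finrank_mono h3
  omega

/-- `g` has at least `m` cycles. -/
def Cyc (g : Equiv.Perm GolayPt) (m : ℕ) : Prop :=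
  ∃ φ : GolayPt → Fin m, Function.Surjective φ ∧ ∀ a, φ (g a) = φ a

theorem Cyc.conj {g : M24} {m : ℕ} (h : Cyc g m) (k : M24) : Cyc (k * g * k⁻¹ : M24) m := by
  obtain ⟨φ, h1, h2⟩ := h
  exact ⟨φ ∘ (k⁻¹ : Equiv.Perm GolayPt), h1.comp (Equiv.surjective _), fun a => by simp [h2]⟩

theorem cyc_of_chk {g : M24} {c f m : ℕ} (hc : mcode g = c)
    (h : (band (nall 24 fun i => band (Nat.beq (ap f (ap c i)) (ap f i)) (Nat.ble (ap f i + 1) m))
      (nall m fun j => nany 24 fun i => Nat.beq (ap f i) j)) = true) : Cyc g m := by
  simp only [band_eq, Bool.and_eq_true, nall_iff, nany_iff, Nat.beq_eq, Nat.ble_eq] at h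
  refine ⟨fun a => ⟨ap f (idx a), (h.1 _ (idx_lt a)).2⟩, fun j => ?_, fun a => Fin.ext ?_⟩
  · obtain ⟨i, hi, e⟩ := h.2 j j.2
    exact ⟨pt i, Fin.ext (by simp only [idx_pt hi, e])⟩
  · simp only [← ap_pcode]
    subst hc
    exact (h.1 _ (idx_lt a)).1

theorem cyc_zA : Cyc zA 16 := cyc_of_chk mcode_zA (f := 641581160860693198997212633474631712) (by decide +kernel)
theorem cyc_yA : Cyc yA 12 := cyc_of_chk mcode_yA (f := 9344173251830871618266543757985824) (by decide +kernel)
theorem cyc_y5 : Cyc y5 8 := cyc_of_chk mcode_y5 (f := 83079291272272156783411018538715168) (by decide +kernel)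
theorem cyc_y7 : Cyc y7 6 := cyc_of_chk mcode_y7 (f := 45560755297249356311074175214191648) (by decide +kernel)
theorem cyc_y7b : Cyc y7b 6 := cyc_of_chk mcode_y7b (f := 45560755297249356311074175214191648) (by decide +kernel)

/-- Right action on functions. -/
def R (g : Equiv.Perm GolayPt) : End ℚ (GolayPt → ℚ) := LinearMap.funLeft ℚ ℚ g

theorem rank_le {g : Equiv.Perm GolayPt} {m : ℕ} (h : Cyc g m) :
    finrank ℚ ↥(LinearMap.range (1 - R g)) + m ≤ 24 := by
  obtain ⟨φ, h1, h2⟩ := h
  have e1 := LinearMap.finrank_range_add_finrank_ker (1 - R g)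
  have h3 : LinearMap.range (LinearMap.funLeft ℚ ℚ φ) ≤ LinearMap.ker (1 - R g) := by
    rintro _ ⟨u, rfl⟩
    ext a
    simp [R, LinearMap.funLeft_apply, h2]
  have := Submodule.finrank_mono h3
  rw [LinearMap.finrank_range_of_inj (LinearMap.funLeft_injective_of_surjective _ _ _ h1)] at this
  simp only [finrank_fintype_fun_eq_card, card_golayPt, Fintype.card_fin] at e1 this
  omega

theorem trans23 {a : GolayPt} (ha : a ≠ none) : ∃ g : Spor.M23, g.1 (some 0) = a := by
  obtain ⟨g, hg, e⟩ := trans_tuples (ι := Fin 2) (by simp) (x := ![none, some 0]) (y := ![none, a])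
    (by decide) (by simp [ha, Function.Injective, Fin.forall_fin_two, ha.symm])
  exact ⟨⟨g, hg, e 0⟩, e 1⟩

theorem ree {x y z : Spor.M23} (h : x * y * z = 1) (hg : Subgroup.closure {x, y} = ⊤) {a b c : ℕ}
    (ha : Cyc x a) (hb : Cyc y b) (hc : Cyc z c) : a + b + c ≤ 28 := by
  have h0 : R y * R x * R z = 1 := by
    have : z * x * y = 1 := by rw [mul_assoc, mul_eq_one_comm, h]
    have := congrArg Subtype.val this
    refine LinearMap.ext fun v => funext fun p => ?_
    exact congrArg v (congrFun (congrArg DFunLike.coe this) p)
  have h1 := scott _ _ _ h0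
  have h2 : finrank ℚ ↥(LinearMap.ker (1 - R y) ⊓ LinearMap.ker (1 - R x)) ≤ 2 := by
    set U := LinearMap.ker (1 - R y) ⊓ LinearMap.ker (1 - R x)
    have hU : ∀ v ∈ U, ∀ g : Spor.M23, ∀ p, v (g.1 p) = v p := by
      intro v hv g
      have hv1 : ∀ p, v (y.1 p) = v p := fun p => (sub_eq_zero.1 (congrFun hv.1 p)).symm
      have hv2 : ∀ p, v (x.1 p) = v p := fun p => (sub_eq_zero.1 (congrFun hv.2 p)).symm
      have : g ∈ Subgroup.closure {x, y} := hg ▸ trivial
      induction this using Subgroup.closure_induction with
      | mem g hg => rcases hg with rfl | rfl <;> assumption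
      | one => simp
      | mul g k _ _ h1 h2 => intro p; rw [← h2 p, ← h1 (k.1 p)]; rfl
      | inv g _ h1 => intro p; rw [← h1]; simp
    have := LinearMap.finrank_le_finrank_of_injective
      (f := (LinearMap.funLeft ℚ ℚ (![none, some 0] : Fin 2 → GolayPt)) ∘ₗ U.subtype)
      ((injective_iff_map_eq_zero _).2 fun v hv => by
        ext p
        by_cases hp : p = none
        · rw [hp]; exact congrFun hv 0
        · obtain ⟨g, rfl⟩ := trans23 hp
          rw [hU v v.2]; exact congrFun hv 1)
    simpa using this
  have h3 : 22 ≤ finrank ℚ ↥(LinearMap.range (1 - R y) ⊔ LinearMap.range (1 - R x)) := by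
    set S := LinearMap.range (1 - R y) ⊔ LinearMap.range (1 - R x)
    have hS : ∀ g : Spor.M23, ∀ v, v - R g v ∈ S := by
      intro g
      have : g ∈ Subgroup.closure {x, y} := hg ▸ trivial
      induction this using Subgroup.closure_induction with
      | mem g hg =>
        rcases hg with rfl | rfl
        · exact fun v => Submodule.mem_sup_right ⟨v, rfl⟩
        · exact fun v => Submodule.mem_sup_left ⟨v, rfl⟩
      | one => intro v; exact (sub_self v) ▸ S.zero_mem
      | mul g k _ _ h1 h2 =>
        intro v
        have := S.add_mem (h1 v) (h2 (R g v))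
        rwa [sub_add_sub_cancel] at this
      | inv g _ h1 =>
        intro v
        have := S.neg_mem (h1 (R (g⁻¹ : Spor.M23) v))
        have e : R g (R (g⁻¹ : Spor.M23) v) = v := by ext p; simp [R, LinearMap.funLeft_apply]
        rwa [e, neg_sub] at this
    let E : Fin 2 → GolayPt → ℚ := ![Pi.single none 1, Pi.single (some 0) 1]
    have h4 : S ⊔ Submodule.span ℚ (Set.range E) = ⊤ := by
      rw [eq_top_iff, ← (Pi.basisFun ℚ GolayPt).span_eq, Submodule.span_le]
      rintro _ ⟨p, rfl⟩
      rw [Pi.basisFun_apply]
      by_cases hp : p = none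
      · rw [hp]; exact Submodule.mem_sup_right (Submodule.subset_span ⟨0, rfl⟩)
      · obtain ⟨g, rfl⟩ := trans23 hp
        have := Submodule.add_mem_sup (hS g (Pi.single (g.1 (some 0)) 1))
          (Submodule.subset_span (s := Set.range E) ⟨1, rfl⟩)
        have e : R g (Pi.single (g.1 (some 0)) 1) = E 1 := by
          ext q; simp [R, E, LinearMap.funLeft_apply, Pi.single_apply]
        rwa [e, sub_add_cancel] at this
    have h5 := Submodule.finrank_add_le_finrank_add_finrank S (Submodule.span ℚ (Set.range E))
    have h6 := finrank_range_le_card (R := ℚ) E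
    rw [h4, finrank_top, finrank_fintype_fun_eq_card, card_golayPt] at h5
    rw [Set.finrank, Fintype.card_fin] at h6
    omega
  have := rank_le ha
  have := rank_le hb
  have := rank_le hc
  rw [finrank_fintype_fun_eq_card, card_golayPt] at h1
  omega

theorem ord (x : Spor.M23) : orderOf (⟨x.1, x.2.1⟩ : M24) = orderOf x :=
  (orderOf_mk _).trans (Subgroup.orderOf_coe x)

theorem cyc_of {x : Spor.M23} {k r : M24} (e : (⟨x.1, x.2.1⟩ : M24) = k * r * k⁻¹) {m : ℕ}
    (h : Cyc r m) : Cyc x m := by
  have := h.conj k
  rwa [← e] at this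

theorem c2 {x : Spor.M23} (h : orderOf x = 2) : Cyc x 16 := by
  obtain ⟨k, e⟩ := class2A ((ord x).trans h) fun h => h none x.2.2
  exact cyc_of e cyc_zA
theorem c3 {x : Spor.M23} (h : orderOf x = 3) : Cyc x 12 := by
  obtain ⟨k, e⟩ := class3A ((ord x).trans h) fun h => h none x.2.2
  exact cyc_of e cyc_yA
theorem c5 {x : Spor.M23} (h : orderOf x = 5) : Cyc x 8 := by
  obtain ⟨k, e⟩ := class5 ((ord x).trans h)
  exact cyc_of e cyc_y5
theorem c7 {x : Spor.M23} (h : orderOf x = 7) : Cyc x 6 := by
  obtain ⟨k, e | e⟩ := class7 ((ord x).trans h)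
  · exact cyc_of e cyc_y7
  · exact cyc_of e cyc_y7b
theorem c0 (x : Spor.M23) : Cyc x 2 := by
  refine ⟨fun a => if a = none then 0 else 1, by decide, fun a => ?_⟩
  have h : x.1 none = none := x.2.2
  have : x.1 a = none ↔ a = none := by rw [← h, x.1.injective.eq_iff, h]
  simp only [this]

/-- Code of an element of `M23`. -/
noncomputable def code (g : Spor.M23) : ℕ := pcode g
theorem gc : GC code mul inv one := gcP.subgroup _

theorem exists_code {c : ℕ} (h : (isM24 c && Nat.beq (ap c 23) 23) = true) : ∃ g, code g = c := by
  rw [Bool.and_eq_true, Nat.beq_eq] at h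
  obtain ⟨g, rfl⟩ := exists_mcode h.1
  exact ⟨⟨g, g.2, idx_inj ((ap_pcode g none).symm.trans h.2)⟩, rfl⟩

theorem gen_top : gen code cM_l1.gens = ⊤ := by
  rw [eq_top_iff]
  rintro ⟨g, hg, hg'⟩ -
  have h := (chkM_sound cM_chk).2.1
  have h1 := h.mem_drop 1 (g := ⟨g, hg⟩) (show _ ∈ gen mcode gM by rw [gen_gM]; trivial) (by
    intro L hL x _ e
    obtain rfl : L = cM_l0 := by simpa [cM] using hL
    obtain rfl : x = none := idx_inj e
    exact hg')
  have h2 : g ∈ gen pcode cM_l1.gens := (mem_gen_pcode (h.drop 1).1).2 ⟨hg, h1⟩
  have h3 : (gen code cM_l1.gens).map Spor.M23.subtype = gen pcode cM_l1.gens := by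
    rw [gen, MonoidHom.map_closure, gen]
    congr 1
    ext k
    constructor
    · rintro ⟨k', hk, rfl⟩; exact hk
    · intro hk
      have : ∀ c ∈ cM_l1.gens, (isM24 c && Nat.beq (ap c 23) 23) = true := by decide +kernel
      obtain ⟨k', e⟩ := exists_code (this _ hk)
      exact ⟨k', by rw [Set.mem_ofPred_eq, e]; exact hk, gcP.inj e⟩
  rw [← h3] at h2
  obtain ⟨k, hk, e⟩ := h2
  rwa [show k = ⟨g, hg, hg'⟩ from Subtype.ext e] at hk

/-- Check of one generating pair. -/
noncomputable def chk (e : ℕ × ℕ × ℕ × ℕ × ℕ × ℕ × ℕ) : Bool :=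
  let (p, q, r, x, y, v, w) := e
  (isM24 x && Nat.beq (ap x 23) 23) && (isM24 y && Nat.beq (ap y 23) 23) &&
    (Nat.beq (cpow mul one x p) one && !Nat.beq x one) &&
    (Nat.beq (cpow mul one y q) one && !Nat.beq y one) &&
    (force (mul x y) fun z => Nat.beq (cpow mul one z r) one && !Nat.beq z one) &&
    wordsChk mul inv one [x, y] cM_l1.gens [v, w]

theorem pos {p q r x y v w : ℕ} (hp : p.Prime) (hq : q.Prime) (hr : r.Prime)
    (h : chk (p, q, r, x, y, v, w) = true) :
    ∃ x y z : Spor.M23, orderOf x = p ∧ orderOf y = q ∧ orderOf z = r ∧ x * y * z = 1 ∧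
      Subgroup.closure {x, y} = ⊤ := by
  have := Fact.mk hp
  have := Fact.mk hq
  have := Fact.mk hr
  rw [chk, Bool.and_eq_true, Bool.and_eq_true, Bool.and_eq_true, Bool.and_eq_true,
    Bool.and_eq_true, force_eq] at h
  obtain ⟨⟨⟨⟨⟨h1, h2⟩, h3⟩, h4⟩, h5⟩, h6⟩ := h
  obtain ⟨x, rfl⟩ := exists_code h1
  obtain ⟨y, rfl⟩ := exists_code h2
  refine ⟨x, y, (x * y)⁻¹, gc.orderOf_prime rfl h3, gc.orderOf_prime rfl h4,
    (orderOf_inv _).trans (gc.orderOf_prime (gc.code_mul x y) h5), mul_inv_cancel _, ?_⟩
  have h7 := (gc.words_sound (by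
    intro s hs
    rcases List.mem_pair.1 hs with rfl | rfl <;> exact ⟨_, rfl⟩) h6).2
  rw [gen_top, top_le_iff, gen] at h7
  rw [← h7]
  congr 1
  ext g; simp [gc.inj.eq_iff]

def tab : List (ℕ × ℕ × ℕ × ℕ × ℕ × ℕ × ℕ) := [(2, 5, 11, 956248846393673818305180056986683894,
  975117495070321880379424684794090102, 87128082541094208619859664633693538338,
  23184458999681141074685196117949571696674), (2, 5, 23, 957234151365436425186095494206075584,
  980499428145728675918208232338854412, 44177704562303948125033981202187313,
  2702633657156404421838909182842537505), (2, 7, 7, 973725025079559053429611728611674152,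
  966076728590380026987451951317550658, 85716040435489612351182692242998321,
  65176368492356174477736951682298841153), (2, 7, 11, 958516868449665516574477498925045801,
  963763201743807665066355868401565777, 2057490791633403755128324275635799074,
  85065775273501620953124414445618721), (2, 7, 23, 984186756002212936433760679155191849,
  979544920167568097680142568085869836, 23325138705042106055472903684697917505,
  2658324008902477868788921571263537), (2, 11, 11, 960940777397815734492745039702627572,
  976569409373476835600298077393173547, 711846530367656081948988185019458,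
  44217595343748751251789397751826497), (2, 11, 23, 958243195073947744661353434749983218,
  970326228540609271070386060897822145, 728281791420062386334414971092371521,
  63668445940102441636854824723089457), (2, 23, 23, 956245379726342370456323546234866166,
  962422489489427977361910186878971018, 83091814520568158615915200021569, 2577470991093496239743610979394),
  (3, 3, 11, 983262837040394321716966401884112007, 960111658404661330448947223745537061,
  21479171483130480516668286177952289, 20957745867001320789311804195376), (3, 3, 23,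
  982948212118830462572233303302677551, 960820331218482662573430851503243719, 1915033574555665284694360144,
  62157591367824269253798044124209), (3, 5, 5, 984452680536288374247581531872793248,
  971785406216999166469298227063724068, 2517041462516443668777829921, 80395985276423479452844112), (3, 5, 7,
  958450596788955963091497188865457700, 961485698921751031544753989451516960, 661777017991193379258448,
  625125624764217452201505), (3, 5, 11, 970048230747249838870693103945193126,
  979625271630828648860362787243371783, 1896899705672741666423883312, 20004591266185308771763234), (3, 5, 23,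
  967940371812425925910719426864595051, 984199063438576406746724371200584832, 75554130111759910977,
  19986328394532412907325520), (3, 7, 7, 984648358005242983418089377188956236,
  980961287755318317547636190178876516, 1286937175193934814004273, 19419628258216865780810288), (3, 7, 11,
  976177887275443914020372896047827308, 976985061368599213861264261460897965, 18981774542919693796418,
  1286311102243378747164209), (3, 7, 23, 966637124257738559399764779790023810,
  955547477423153138125131335016797896, 40215686669492424884290, 2454049190971432831010), (3, 11, 11,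
  957547257559113399280332550980085293, 983299260807049617173610042212370062, 3025285666122589030910032,
  20663254860527276966433), (3, 11, 23, 983481495447759603714316791264315904,
  976866076140561382911089440480221350, 76166620209278420034, 77385876556360303822338), (3, 23, 23,
  957550765211763443706110061812224384, 983054334301089726833509083078733228, 20005164808043170417346626,
  20716884868431505066033), (5, 5, 5, 967309257804850587258457552407597137,
  981633982426486122804856383323817408, 609934337147400635921, 643478982194422299558977), (5, 5, 7,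
  968712543907387681314229197153054095, 981528287539564074632566386239064416, 625142342125468406286416,
  20610196739765627382743600), (5, 5, 11, 973129225466095457187737603158360235,
  962661566250329686458404416883106095, 20698473572579892806705, 57124274001458759713), (5, 5, 23,
  982046901673811047495427472251524336, 963301697724920288340609540553287849, 76687911333537530416,
  2884593015090906657), (5, 7, 7, 983182837272399993406871772992084135, 967513580992183469797923773741255178,
  592656858818659532880, 18087001780143137), (5, 7, 11, 984199458738030529777804031742872074,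
  972974426247757025565157298182200008, 95075746223682735915553, 2417714149693171221553), (5, 7, 23,
  973089540080195042256428122450905760, 962583415502411045641382871061347560, 20716885378021289133122,
  646267128721272473666), (5, 11, 11, 984331009357900407312236493840853170,
  976238412289656560896182536646526240, 625125642267877275387441, 1191290630918652465), (5, 11, 23,
  979203170112624396206988344949162118, 982141828796067562619427281047127062, 95057263485448181858864,
  647420033748757430337), (5, 23, 23, 974353112896459737626753470703975606,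
  983140672436965201354792122726170885, 625161347932721932437025, 39588479373063268909122), (7, 7, 7,
  973116441336754135329398945806437644, 959685885424587929595172507777151016, 1826301446111515641889,
  647384004952827445314), (7, 7, 11, 971698136094809137001714083069693462,
  956091578648577393573804274378775637, 95075710212444061238306, 75014772428760433697), (7, 7, 23,
  970253481302646145690291988284394144, 962262889928430045945974658676664757, 18965019532758030517281,
  646268254637285491202), (7, 11, 11, 983157562518386746965682008934848884,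
  984234925665504484729444661894578546, 609934337661772284977, 39272586721254490657), (7, 11, 23,
  978023269768740793063072473833113990, 960145877528892302510849406961754347, 2340362593551889,
  610509179433669133378), (7, 23, 23, 962252716454095034392035684996764877,
  965947706558424130860218203944667237, 18965633625396397294113, 20127164357740808668193), (11, 11, 11,
  976765472865628127505091251404054066, 978063562268970527448616877825371667, 19499940156321984725520,
  1220386009251749315618), (11, 11, 23, 972520715017898728970740055457116337,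
  965039016537784701671211226513287379, 39289475787898553889, 1227319411846168641), (11, 23, 23,
  971735596099320179621540972353369136, 982805244548988918846525546745089238, 2395987605533525057,
  20231349854581899809), (23, 23, 23, 969827556816628963477030434692931591,
  963523089149375062150692935883464047, 19078428366099005505, 18536888137469200464)]

theorem tab_chk : ∀ e ∈ tab, chk e = true := by decide +kernel

theorem primes {p : ℕ} (hp : p.Prime) (h : p ∣ 10200960) : p ∈ [2, 3, 5, 7, 11, 23] := by
  have : p ∈ Nat.primeFactorsList 10200960 := (Nat.mem_primeFactorsList (by norm_num)).2 ⟨hp, h⟩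
  simp only [Nat.primeFactorsList_ofNat] at this
  simp at this ⊢
  omega


/-- Generation of the Mathieu group M₂₃ (the stabiliser of a point in the Mathieu group M₂₄ acting on 24 points) by triples of prime orders. Let p ≤ q ≤ r be primes dividing |M₂₃| = 10200960 = 2⁷·3²·5·7·11·23, not both p and q equal to 2. Then M₂₃ contains elements x, y, z of orders p, q, r with xyz = 1 and ⟨x, y⟩ = M₂₃ if and only if (p, q, r) is none of: (2, 3, r) for any r, (2, 5, 5), (2, 5, 7), (3, 3, 3), (3, 3, 5), (3, 3, 7). -/
theorem result (p q r : ℕ) (hp : p.Prime) (hq : q.Prime)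
    (hr : r.Prime) (hpq : p ≤ q) (hqr : q ≤ r) (hp2 : ¬ (p = 2 ∧ q = 2))
    (hdvd : p ∣ 10200960 ∧ q ∣ 10200960 ∧ r ∣ 10200960) :
    (∃ x y z : Cfsg.Spor.M23, orderOf x = p ∧ orderOf y = q ∧ orderOf z = r ∧ x * y * z = 1 ∧
        Subgroup.closure {x, y} = ⊤) ↔
      ¬ ((p = 2 ∧ q = 3) ∨ (p = 2 ∧ q = 5 ∧ r = 5) ∨ (p = 2 ∧ q = 5 ∧ r = 7) ∨ (p = 3 ∧ q = 3 ∧ r ≤ 7)) := by
  constructor
  · rintro ⟨x, y, z, hx, hy, hz, h, hg⟩ (⟨rfl, rfl⟩ | ⟨rfl, rfl, rfl⟩ | ⟨rfl, rfl, rfl⟩ | ⟨rfl, rfl, h7⟩)
    · have := ree h hg (c2 hx) (c3 hy) (c0 z); omega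
    · have := ree h hg (c2 hx) (c5 hy) (c5 hz); omega
    · have := ree h hg (c2 hx) (c5 hy) (c7 hz); omega
    · interval_cases r
      · have := ree h hg (c3 hx) (c3 hy) (c3 hz); omega
      · exact absurd hr (by norm_num)
      · have := ree h hg (c3 hx) (c3 hy) (c5 hz); omega
      · exact absurd hr (by norm_num)
      · have := ree h hg (c3 hx) (c3 hy) (c7 hz); omega
  · intro hn
    have key : ∀ p ∈ [2, 3, 5, 7, 11, 23], ∀ q ∈ [2, 3, 5, 7, 11, 23], ∀ r ∈ [2, 3, 5, 7, 11, 23],
        p ≤ q → q ≤ r → ¬ (p = 2 ∧ q = 2) → ¬ ((p = 2 ∧ q = 3) ∨ (p = 2 ∧ q = 5 ∧ r = 5) ∨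
          (p = 2 ∧ q = 5 ∧ r = 7) ∨ (p = 3 ∧ q = 3 ∧ r ≤ 7)) →
        ∃ e ∈ tab, e.1 = p ∧ e.2.1 = q ∧ e.2.2.1 = r := by decide +kernel
    obtain ⟨⟨_, _, _, x, y, v, w⟩, he, rfl, rfl, rfl⟩ := key p (primes hp hdvd.1) q
      (primes hq hdvd.2.1) r (primes hr hdvd.2.2) hpq hqr hp2 hn
    exact pos hp hq hr (tab_chk _ he)

end Cfsg.Agent.S5529
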