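import Cfsg.Statements.S5560
import Cfsg.Agent.BS.ZStar

set_option autoImplicit false
open Cfsg

namespace Cfsg.Agent.S5560

/-- A Z*-type result for an odd prime p. Let G be a finite group and d an involution of G such that the product of any two conjugates of d has order a power of p. Then the product of any two conjugates of d lies in the largest normal p-subgroup O_p(G); in other words the conjugacy class of d lies in the coset O_p(G)d, and d is central modulo O_p(G). -/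
theorem result {G : Type*} [Group G] [Finite G] {p : ℕ} (hp : p.Prime) (hp2 : p ≠ 2)
    (d : G) (hd : orderOf d = 2)
    (hprod : ∀ a ∈ conjugatesOf d, ∀ b ∈ conjugatesOf d, ∃ k : ℕ, orderOf (a * b) = p ^ k) :
    ∀ a ∈ conjugatesOf d, ∀ b ∈ conjugatesOf d, a * b ∈ Cfsg.pCore p G := by
  open Subgroup Cfsg.Agent.GT Cfsg.Agent.BS in
  have hdd := mul_self_of_orderOf hd
  have hconj : ∀ g, g * d * g⁻¹ ∈ conjugatesOf d := fun g => isConj_iff.2 ⟨g, rfl⟩
  have hdm : d ∈ conjugatesOf d := IsConj.refl d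
  have hpo : Odd p := hp.odd_of_ne_two hp2
  have hiso : Isolated d := ⟨hdd, fun g => by
    obtain ⟨k, hk⟩ := hprod d hdm _ (hconj g)
    rw [hk]; exact hpo.pow⟩
  have : Fintype G := Fintype.ofFinite G
  obtain ⟨K, hK⟩ : ∃ K : Subgroup G, K = piCore {2}ᶜ G := ⟨_, rfl⟩
  have hKn : K.Normal := hK ▸ inferInstance
  have hKo : Odd (Nat.card K) := piNat_two_compl.1 (by
    rw [hK, ← piCoreOf_top]; exact piCoreOf_isPi _ _)
  have hZ : ∀ g, d * (g * d * g⁻¹) ∈ K := fun g => hK ▸ hiso.mul_conj_mem g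
  have hA : Group.IsSolvable K ∨ Group.IsSolvable (zpowers d) :=
    Or.inr (solvable_of_comm (PG.isMulCommutative_zpowers d))
  have hco : (Nat.card K).Coprime (Nat.card (zpowers d)) := by
    rw [Nat.card_zpowers, hd]; exact Nat.coprime_two_right.2 hKo
  obtain ⟨P, hP, hPn⟩ := coprime_exists_syl hp hA le_norm_of_normal hco
  have hdP : d ∈ N[P] := hPn (mem_zpowers d)
  have hq : ∀ q : ℕ, q.Prime → q ≠ p → ∃ Q, IsPiHallOf {q} Q K ∧ Q ≤ K ⊓ C1[d] := by
    intro q hq hqp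
    obtain ⟨Q, hQ, hQn⟩ := coprime_exists_syl hq hA le_norm_of_normal hco
    refine ⟨Q, hQ, le_inf (syl_le hQ) fun x hx => ?_⟩
    have h1 : d * (x * d * x⁻¹) ∈ Q := by
      have := mul_mem (conj_mem_of_mem_norm (hQn (mem_zpowers d)) hx) (inv_mem hx)
      rw [inv_eq_of_mul_eq_one_right hdd] at this
      simpa [mul_assoc] using this
    obtain ⟨k, hk⟩ := hprod d hdm _ (hconj x)
    have h2 : d * (x * d * x⁻¹) = 1 := eq_one_of_piNat_orderOf (hQ.isPi.orderOf h1) (by
      rw [hk, piNat_single_compl_iff hq]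
      exact fun h => hqp ((Nat.prime_dvd_prime_iff_eq hq hp).1 (hq.dvd_of_dvd_pow h)))
    exact mem_cent1.2 (mul_inv_eq_iff_eq_mul.1
      ((eq_inv_of_mul_eq_one_right h2).trans (inv_eq_of_mul_eq_one_right hdd)))
  have hidx : PiNat {p} ((K ⊓ C1[d]).relIndex K) := by
    intro q hq' hqd
    by_contra hqp
    obtain ⟨Q, hQ, hQ'⟩ := hq q hq' hqp
    exact syl_not_dvd hq' hQ (hqd.trans (relIndex_dvd_of_le_left K hQ'))
  have hmul := fun x (hx : x ∈ K) => exists_mul_of_coprime_relIndex (syl_le hP)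
    (inf_le_left : K ⊓ C1[d] ≤ K) (hidx.coprime hP.idx).symm x hx
  have hD : ∀ a ∈ conjugatesOf d, ∃ x ∈ P, a = x * d := by
    intro a ha
    obtain ⟨g, rfl⟩ := isConj_iff.1 ha
    obtain ⟨k, hk⟩ := conj_of_odd hdd (conj_invol hdd g) (hiso.2 g)
    obtain ⟨x, hx, c, hc, e⟩ := hmul _ (pow_mem (hZ g) k)
    rw [e] at hk
    refine ⟨x * (d * x⁻¹ * d⁻¹), mul_mem hx (conj_mem_of_mem_norm hdP (inv_mem hx)), ?_⟩
    calc g * d * g⁻¹ = x * (c * d) * (x * c)⁻¹ := by nth_rewrite 2 [hk]; group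
      _ = _ := by rw [mem_cent1.1 hc.2]; group
  have hS : Subgroup.closure {x | ∃ a ∈ conjugatesOf d, ∃ b ∈ conjugatesOf d, x = a * b} ≤ P := by
    rw [closure_le]
    rintro _ ⟨a, ha, b, hb, rfl⟩
    obtain ⟨x, hx, rfl⟩ := hD a ha
    obtain ⟨y, hy, rfl⟩ := hD b hb
    have := mul_mem hx (conj_mem_of_mem_norm hdP hy)
    rw [inv_eq_of_mul_eq_one_right hdd] at this
    simpa [mul_assoc] using this
  intro a ha b hb
  refine (le_sSup (a := Subgroup.closure
    {x | ∃ a ∈ conjugatesOf d, ∃ b ∈ conjugatesOf d, x = a * b}) ⟨⟨fun x hx g => ?_⟩,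
      (syl_isPGroup hp hP).to_le hS⟩ : _ ≤ pCore p G) (subset_closure ⟨a, ha, b, hb, rfl⟩)
  induction hx using closure_induction with
  | mem x hx =>
    obtain ⟨a, ha, b, hb, rfl⟩ := hx
    exact subset_closure ⟨g * a * g⁻¹, IsConj.trans ha (isConj_iff.2 ⟨g, rfl⟩), g * b * g⁻¹,
      IsConj.trans hb (isConj_iff.2 ⟨g, rfl⟩), by group⟩
  | one => simp
  | mul x y _ _ hx hy => simpa [mul_assoc] using mul_mem hx hy
  | inv x _ hx => simpa [mul_assoc] using inv_mem hx

end Cfsg.Agent.S5560
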