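import Cfsg.Statements.S5562
import Cfsg.Agent.TT.Basic

set_option autoImplicit false
open Cfsg

namespace Cfsg.Agent.S5562

/-- Let G be a finite group, d an involution of G whose conjugates pairwise have products of odd order, and x any involution of G. Then the conjugacy class of d is the disjoint union, over the conjugates a of d commuting with x, of the sets of conjugates of d commuting with ax: every conjugate of d commutes with ax for exactly one conjugate a of d that commutes with x. -/
theorem result {G : Type*} [Group G] [Finite G] (d : G) (hd : orderOf d = 2)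
    (hodd : ∀ a ∈ conjugatesOf d, ∀ b ∈ conjugatesOf d, Odd (orderOf (a * b)))
    (x : G) (hx : orderOf x = 2) :
    ∀ e ∈ conjugatesOf d,
      ∃! a : G, a ∈ conjugatesOf d ∧ Commute a x ∧ Commute e (a * x) := by
  intro e he
  have sq : ∀ a ∈ conjugatesOf d, a * a = 1 := by
    intro a ha
    obtain ⟨g, rfl⟩ := isConj_iff.1 ha
    exact TT.conj_mul_self g (TT.mul_self_of_orderOf hd)
  have hconj : ∀ g : G, ∀ a ∈ conjugatesOf d, g * a * g⁻¹ ∈ conjugatesOf d :=
    fun g a ha => IsConj.trans ha (isConj_iff.2 ⟨g, rfl⟩)
  have hx2 := TT.mul_self_of_orderOf hx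
  have he2 := sq e he
  have he' : x * e * x ∈ conjugatesOf d := by
    have := hconj x e he
    rwa [TT.inv_of_sq hx2] at this
  have uniq : ∀ a ∈ conjugatesOf d, ∀ a' ∈ conjugatesOf d, e * a * e * a = e * a' * e * a' →
      a = a' := by
    intro a ha a' ha' h
    have := TT.eq_of_sq_eq_of_odd (hodd e he a ha) (hodd e he a' ha') (pow_orderOf_eq_one _)
      (pow_orderOf_eq_one _) (by simpa [pow_two, mul_assoc] using h)
    exact mul_left_cancel this
  obtain ⟨k, hk⟩ := hodd e he _ he'
  have hk1 : (e * (x * e * x)) ^ (2 * k + 1) = 1 := by rw [← hk, pow_orderOf_eq_one]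
  have haD := TT.mul_pow_mem hconj he2 (sq _ he') he he' (k + 1)
  set a := e * (e * (x * e * x)) ^ (k + 1) with ha
  have ha2 := sq a haD
  have hea : e * a * e * a = e * (x * e * x) := by
    have : e * a = (e * (x * e * x)) ^ (k + 1) := by rw [ha, TT.sq_cancel he2]
    rw [mul_assoc (e * a), this, ← pow_add, show k + 1 + (k + 1) = 2 * k + 1 + 1 by ring,
      pow_succ, hk1, one_mul]
  have hea' : a * e * a = x * e * x := by
    have := congrArg (e * ·) hea
    simpa [mul_assoc, TT.sq_cancel he2] using this
  have key : ∀ b : G, b * b = 1 → Commute b x → (Commute e (b * x) ↔ b * e * b = x * e * x) := by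
    intro b hb hbx
    constructor
    · intro h
      have h1 : e * (b * x) = b * x * e := h
      calc b * e * b = b * (e * (b * x)) * x := by simp [mul_assoc, hx2]
        _ = x * e * x := by rw [h1]; simp [mul_assoc, TT.sq_cancel hb]
    · intro h
      show e * (b * x) = b * x * e
      calc e * (b * x) = b * (b * e * b) * x := by simp [mul_assoc, TT.sq_cancel hb]
        _ = b * x * e := by rw [h]; simp [mul_assoc, hx2]
  have hax : Commute a x := by
    have h1 : x * a * x⁻¹ = a := by
      apply uniq _ (hconj x a haD) _ haD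
      rw [hea, TT.inv_of_sq hx2]
      have h2 : a * (x * e * x) * a = e := by
        rw [← hea']; simp [mul_assoc, TT.sq_cancel ha2, ha2]
      calc e * (x * a * x) * e * (x * a * x) = e * x * (a * (x * e * x) * a) * x := by
            simp [mul_assoc]
        _ = e * (x * e * x) := by rw [h2]; simp [mul_assoc]
    exact (TT.commute_iff_conj.2 h1).symm
  refine ⟨a, ⟨haD, hax, (key a ha2 hax).2 hea'⟩, ?_⟩
  rintro b ⟨hb, hbx, hb'⟩
  apply uniq _ hb _ haD
  have := (key b (sq b hb) hbx).1 hb'
  rw [hea, ← this]; simp [mul_assoc]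

end Cfsg.Agent.S5562
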