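import Cfsg.Statements.S5596
import Cfsg.Agent.TT.SingU

set_option autoImplicit false
open Cfsg

namespace Cfsg.Agent.S5596

open Cfsg.Agent.TT Cfsg.Agent.GT Subgroup

/-- Setting: `z` is an involution of the finite group `G`; for each element `x`, `Q x` is the largest normal 2-subgroup of the centralizer of `x`; `Q z` is extraspecial and contains its own centralizer in `G`. A subgroup `U` is singular when it is elementary abelian, every non-identity element of `U` is conjugate to `z`, and any two non-identity elements `u`, `v` of `U` are orthogonal (`v ∈ Q u`). Write `QU` for the intersection of the `Q u` and `LU` for the join of the `Q u` over the non-identity `u` in `U`. If `U` is singular of order `2 ^ n` with `n ≥ 2`, then `U ≤ QU ≤ LU`, `LU` normalizes `U`, and `LU` induces on `U` its full automorphism group (the general linear group of dimension `n` over the field with two elements): every automorphism of `U` is conjugation by some element of `LU`. -/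
theorem result {G : Type*} [Group G] [Finite G]
    (Q : G → Subgroup G)
    (hQ : ∀ x : G, Q x = (Cfsg.pCore 2 ↥(Subgroup.centralizer ({x} : Set G))).map (Subgroup.centralizer ({x} : Set G)).subtype)
    (z : G) (hz : orderOf z = 2) (hE : Cfsg.IsExtraspecial 2 ↥(Q z))
    (hC : Subgroup.centralizer ((Q z : Subgroup G) : Set G) ≤ Q z)
    (U : Subgroup G) (hU2 : ∀ u ∈ U, u * u = 1)
    (hS : ∀ u ∈ U, u ≠ 1 → ∃ g : G, g * z * g⁻¹ = u)
    (hO : ∀ u ∈ U, ∀ v ∈ U, u ≠ 1 → v ≠ 1 → v ∈ Q u)
    (QU LU : Subgroup G) (hQU : QU = ⨅ u ∈ ((U : Set G) \ {1}), Q u) (hLU : LU = ⨆ u ∈ ((U : Set G) \ {1}), Q u)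
    (n : ℕ) (hn : 2 ≤ n) (hcard : Nat.card ↥U = 2 ^ n) :
    U ≤ QU ∧ QU ≤ LU ∧ LU ≤ Subgroup.normalizer (U : Set G) ∧
      ∀ φ : ↥U ≃* ↥U, ∃ g ∈ LU, ∀ u : ↥U, g * (u : G) * g⁻¹ = ((φ u : ↥U) : G) := by
  classical
  obtain rfl : Q = fun x => Op 2 C1[x] := funext hQ
  have h : Sing U := Sing.of hz hE hC hU2 hS hO
  have hL : ∀ u ∈ U, u ≠ 1 → Op 2 C1[u] ≤ LU := fun u hu h1 => by
    rw [hLU]; exact le_iSup₂_of_le (f := fun u (_ : u ∈ ((U : Set G) \ {1})) => Op 2 C1[u])
      u ⟨hu, h1⟩ le_rfl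
  have hne : U ≠ ⊥ := by
    rintro rfl
    rw [card_bot] at hcard
    have := Nat.pow_le_pow_right (show 0 < 2 by norm_num) hn
    omega
  obtain ⟨⟨u, hu⟩, hu1⟩ := (ne_bot_iff_exists_ne_one).1 hne
  have hu1' : u ≠ 1 := fun e => hu1 (Subtype.ext e)
  refine ⟨?_, ?_, ?_, fun φ => ?_⟩
  · rw [hQU]; exact le_iInf₂ fun u hu => h.le hu.1 hu.2
  · rw [hQU]
    exact (iInf₂_le (f := fun u (_ : u ∈ ((U : Set G) \ {1})) => Op 2 C1[u]) u ⟨hu, hu1'⟩).trans
      (hL u hu hu1')
  · rw [hLU]; exact iSup₂_le fun u hu => h.le_norm hu.1 hu.2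
  · obtain ⟨g, hg, hg'⟩ := h.induce hL ⊥ bot_le
      (fun x => if hx : x ∈ U then (φ ⟨x, hx⟩ : G) else x)
      (fun u hu => by simp [hu])
      (fun a ha b hb => by
        simp only [ha, hb, U.mul_mem ha hb, dif_pos]
        rw [← coe_mul, ← map_mul]; rfl)
      (fun a ha b hb e => by
        simp only [ha, hb, dif_pos] at e
        exact congrArg Subtype.val (φ.injective (Subtype.ext e)))
      (fun w hw => by
        rw [mem_bot.1 hw]
        simp only [U.one_mem, dif_pos]
        exact congrArg Subtype.val (map_one φ))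
    exact ⟨g, hg, fun u => by rw [hg' u u.2]; simp⟩

end Cfsg.Agent.S5596
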