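import Cfsg.Statements.S5598
import Cfsg.Agent.TT.SingU

set_option autoImplicit false
open Cfsg

namespace Cfsg.Agent.S5598

open Cfsg.Agent.TT Cfsg.Agent.GT Subgroup

/-- Setting: `z` is an involution of the finite group `G`; for each element `x`, `Q x` is the largest normal 2-subgroup of the centralizer of `x`; `Q z` is extraspecial and contains its own centralizer in `G`. A subgroup `U` is singular when it is elementary abelian, every non-identity element of `U` is conjugate to `z`, and any two non-identity elements `u`, `v` of `U` are orthogonal (`v ∈ Q u`). Write `QU` for the intersection of the `Q u` and `LU` for the join of the `Q u` over the non-identity `u` in `U`. If the singular subgroup `U` is generated by a set `T` of non-identity elements, then `QU` is already the intersection of the `Q t` over `t ∈ T`. -/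
theorem result {G : Type*} [Group G] [Finite G]
    (Q : G → Subgroup G)
    (hQ : ∀ x : G, Q x = (Cfsg.pCore 2 ↥(Subgroup.centralizer ({x} : Set G))).map (Subgroup.centralizer ({x} : Set G)).subtype)
    (z : G) (hz : orderOf z = 2) (hE : Cfsg.IsExtraspecial 2 ↥(Q z))
    (hC : Subgroup.centralizer ((Q z : Subgroup G) : Set G) ≤ Q z)
    (U : Subgroup G) (hU2 : ∀ u ∈ U, u * u = 1)
    (hS : ∀ u ∈ U, u ≠ 1 → ∃ g : G, g * z * g⁻¹ = u)
    (hO : ∀ u ∈ U, ∀ v ∈ U, u ≠ 1 → v ≠ 1 → v ∈ Q u)
    (QU LU : Subgroup G) (hQU : QU = ⨅ u ∈ ((U : Set G) \ {1}), Q u) (hLU : LU = ⨆ u ∈ ((U : Set G) \ {1}), Q u)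
    (T : Set G) (hT : Subgroup.closure T = U) (hT1 : (1 : G) ∉ T) :
    QU = ⨅ t ∈ T, Q t := by
  obtain rfl : Q = fun x => Op 2 C1[x] := funext hQ
  have h : Sing U := Sing.of hz hE hC hU2 hS hO
  rw [hQU]
  apply le_antisymm
  · refine le_iInf₂ fun t ht => ?_
    exact (iInf₂_le (f := fun u (_ : u ∈ ((U : Set G) \ {1})) => Op 2 C1[u]) t
      ⟨hT ▸ subset_closure ht, fun e => hT1 (e ▸ ht)⟩)
  · intro x hx
    simp only [mem_iInf] at hx ⊢
    have key : ∀ u ∈ closure T, u = 1 ∨ x ∈ Op 2 C1[u] := by
      intro u hu
      induction hu using closure_induction with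
      | mem t ht => exact Or.inr (hx t ht)
      | one => exact Or.inl rfl
      | mul a b ha hb iha ihb =>
        by_cases a1 : a = 1
        · simpa [a1] using ihb
        by_cases b1 : b = 1
        · simpa [b1] using iha
        by_cases ab : a * b = 1
        · exact Or.inl ab
        exact Or.inr (h.mem_mul (hT ▸ ha) (hT ▸ hb) a1 b1 ab (iha.resolve_left a1)
          (ihb.resolve_left b1))
      | inv a ha iha => rwa [inv_of_sq (h.sq a (hT ▸ ha))]
    exact fun u hu => (key u (hT ▸ hu.1)).resolve_left hu.2

end Cfsg.Agent.S5598
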